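import Mathlib

set_option autoImplicit false
set_option linter.unusedSimpArgs false

/-! Decomposition of an endomorphism of a finite dimensional space into cyclic blocks
(elementary divisors). -/

namespace H99.Cyclic

open Module Polynomial

universe u v

variable {F : Type u} [Field F]

theorem exists_cyclic_basis_aux {V : Type v} [AddCommGroup V] [Module F V] [FiniteDimensional F V]
    (T : V →ₗ[F] V) :
    ∃ (ι : Type u) (_ : Fintype ι) (f : ι → F[X]) (v : ι → V)
      (b : Basis (Σ i : ι, Fin (f i).natDegree) F V),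
      (∀ i, (f i).Monic) ∧ (∀ i, ∃ (p : F[X]) (e : ℕ), Irreducible p ∧ p.Monic ∧ f i = p ^ e) ∧
      (∀ i (j : Fin (f i).natDegree), b ⟨i, j⟩ = (T ^ (j : ℕ)) (v i)) ∧
      (∀ i, aeval T (f i) (v i) = 0) := by
  classical
  have : Module.Finite F[X] (AEval' T) := inferInstance
  obtain ⟨ι, hι, p, hp, e, ⟨l0⟩⟩ := Module.equiv_directSum_of_isTorsion
    (R := F[X]) (M := AEval' T) (AEval.isTorsion_of_finiteDimensional F V T)
  let l : AEval' T ≃ₗ[F[X]] (∀ i, (F[X] ⧸ (F[X] ∙ p i ^ e i))) :=
    l0.trans (DFinsupp.linearEquivFunOnFintype)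
  -- normalise
  set P : ι → F[X] := fun i => normalize (p i) with hP
  have hPmon : ∀ i, (P i).Monic := fun i => Polynomial.monic_normalize (hp i).ne_zero
  have hPirr : ∀ i, Irreducible (P i) := fun i => by
    rw [hP]; exact (normalize_associated (p i)).symm.irreducible (hp i)
  set f : ι → F[X] := fun i => P i ^ e i with hf
  have hfmon : ∀ i, (f i).Monic := fun i => (hPmon i).pow _
  have hspan : ∀ i, (F[X] ∙ p i ^ e i) = (Ideal.span {f i} : Ideal F[X]) := by
    intro i
    show Ideal.span {p i ^ e i} = _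
    rw [Ideal.span_singleton_eq_span_singleton]
    exact ((normalize_associated (p i)).symm).pow_pow
  let E : ∀ i, AdjoinRoot (f i) ≃ₗ[F] (F[X] ⧸ (F[X] ∙ p i ^ e i)) := fun i =>
    ((Submodule.quotEquivOfEq _ _ (hspan i).symm).restrictScalars F :
      (F[X] ⧸ (Ideal.span {f i} : Ideal F[X])) ≃ₗ[F] (F[X] ⧸ (F[X] ∙ p i ^ e i)))
  have hE : ∀ i (g : F[X]), E i (AdjoinRoot.mk (f i) g) = Submodule.Quotient.mk g := fun i g => rfl
  let pb : ∀ i, Basis (Fin (f i).natDegree) F (F[X] ⧸ (F[X] ∙ p i ^ e i)) := fun i =>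
    (AdjoinRoot.powerBasis' (hfmon i)).basis.map (E i)
  let B0 : Basis (Σ i, Fin (f i).natDegree) F (∀ i, (F[X] ⧸ (F[X] ∙ p i ^ e i))) := Pi.basis pb
  have hB0 : ∀ i (j : Fin (f i).natDegree), B0 ⟨i, j⟩ = Pi.single i (Submodule.Quotient.mk (X ^ (j : ℕ))) := by
    intro i j
    have h1 : B0 ⟨i, j⟩ = Pi.single i (pb i j) := Pi.basis_apply ..
    rw [h1]
    congr 1
    show E i ((AdjoinRoot.powerBasis' (hfmon i)).basis j) = _
    have h2 : (AdjoinRoot.powerBasis' (hfmon i)).basis j = AdjoinRoot.root (f i) ^ (j : ℕ) :=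
      (AdjoinRoot.powerBasis' (hfmon i)).basis_eq_pow j
    rw [h2]
    rw [← AdjoinRoot.mk_X, ← map_pow, hE]
  have hlF : ∀ (c : F) (x : AEval' T), l (c • x) = c • l x := by
    intro c x
    have h1 : c • x = (C c : F[X]) • x := (AEval.C_smul T c x).symm
    rw [h1, map_smul]
    funext i
    show (C c : F[X]) • (l x) i = c • (l x) i
    rw [← Polynomial.algebraMap_eq, algebraMap_smul]
  let L : V ≃ₗ[F] (∀ i, (F[X] ⧸ (F[X] ∙ p i ^ e i))) :=
    { toFun := fun x => l (AEval'.of T x)
      map_add' := fun x y => by rw [map_add, map_add]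
      map_smul' := fun c x => by
        rw [map_smul, hlF]; rfl
      invFun := fun y => (AEval'.of T).symm (l.symm y)
      left_inv := fun x => by simp
      right_inv := fun y => by simp }
  refine ⟨ι, hι, f, fun i => L.symm (Pi.single i (Submodule.Quotient.mk 1)), B0.map L.symm, hfmon,
    fun i => ⟨P i, e i, hPirr i, hPmon i, rfl⟩, ?_, ?_⟩
  · intro i j
    rw [Basis.map_apply, hB0]
    show (AEval'.of T).symm (l.symm _) = _
    have h1 : (Pi.single i (Submodule.Quotient.mk (X ^ (j : ℕ))) : ∀ i, (F[X] ⧸ (F[X] ∙ p i ^ e i))) =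
        (X ^ (j : ℕ) : F[X]) • Pi.single i (Submodule.Quotient.mk 1) := by
      rw [← Pi.single_smul, ← Submodule.Quotient.mk_smul, smul_eq_mul, mul_one]
    rw [h1]
    have h2 : l.symm ((X ^ (j : ℕ) : F[X]) • Pi.single i (Submodule.Quotient.mk 1)) =
      (X ^ (j : ℕ) : F[X]) • l.symm (Pi.single i (Submodule.Quotient.mk 1)) := map_smul l.symm _ _
    rw [h2]
    have h3 := AEval'.X_pow_smul_of (φ := T) (L.symm (Pi.single i (Submodule.Quotient.mk 1))) (j : ℕ)
    have h4 : AEval'.of T (L.symm (Pi.single i (Submodule.Quotient.mk 1))) =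
      l.symm (Pi.single i (Submodule.Quotient.mk 1)) := by
      show AEval'.of T ((AEval'.of T).symm (l.symm _)) = _
      rw [LinearEquiv.apply_symm_apply]
    rw [h4] at h3
    rw [h3, LinearEquiv.symm_apply_apply]
    rfl
  · intro i
    have h4 : AEval'.of T (L.symm (Pi.single i (Submodule.Quotient.mk 1))) =
      l.symm (Pi.single i (Submodule.Quotient.mk 1)) := by
      show AEval'.of T ((AEval'.of T).symm (l.symm _)) = _
      rw [LinearEquiv.apply_symm_apply]
    apply (AEval'.of T).injective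
    have h5 := AEval.of_aeval_smul (R := F) (M := V) T (f i) (L.symm (Pi.single i (Submodule.Quotient.mk 1)))
    have h6 : (f i) • l.symm (Pi.single i (Submodule.Quotient.mk 1)) = 0 := by
      rw [← map_smul, ← Pi.single_smul, ← Submodule.Quotient.mk_smul, smul_eq_mul, mul_one]
      have h7 : (Submodule.Quotient.mk (f i) : (F[X] ⧸ (F[X] ∙ p i ^ e i))) = 0 := by
        rw [Submodule.Quotient.mk_eq_zero, hspan]
        exact Ideal.mem_span_singleton_self _
      rw [h7, Pi.single_zero, map_zero]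
    rw [map_zero]
    rw [← h6, ← h4]
    exact h5

/-- cyclic decomposition data for an endomorphism -/
structure Data {V : Type v} [AddCommGroup V] [Module F V] (T : V →ₗ[F] V) {m : ℕ} (f : Fin m → F[X]) where
  v : Fin m → V
  b : Basis (Σ i : Fin m, Fin (f i).natDegree) F V
  monic : ∀ i, (f i).Monic
  pos : ∀ i, 0 < (f i).natDegree
  b_eq : ∀ i (j : Fin (f i).natDegree), b ⟨i, j⟩ = (T ^ (j : ℕ)) (v i)
  ann : ∀ i, aeval T (f i) (v i) = 0

theorem exists_cyclic_basis {V : Type v} [AddCommGroup V] [Module F V] [FiniteDimensional F V]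
    (T : V →ₗ[F] V) :
    ∃ (m : ℕ) (f : Fin m → F[X]) (_ : Data T f),
      (∀ i, ∃ (p : F[X]) (e : ℕ), Irreducible p ∧ p.Monic ∧ 0 < e ∧ f i = p ^ e) := by
  classical
  obtain ⟨ι, hι, f, v, b, h1, h2, h3, h4⟩ := exists_cyclic_basis_aux T
  let S := {i : ι // 0 < (f i).natDegree}
  let es : Fin (Fintype.card S) ≃ S := (Fintype.equivFin S).symm
  let g : (Σ i : Fin (Fintype.card S), Fin (f (es i).1).natDegree) → (Σ i : ι, Fin (f i).natDegree) :=
    fun x => ⟨(es x.1).1, x.2⟩
  have hg : Function.Bijective g := by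
    constructor
    · rintro ⟨i, j⟩ ⟨i', j'⟩ h
      simp only [g, Sigma.mk.injEq] at h
      obtain ⟨ha, hb⟩ := h
      have : i = i' := es.injective (Subtype.ext ha)
      subst this
      rw [heq_iff_eq] at hb
      rw [hb]
    · rintro ⟨i, j⟩
      have hi : 0 < (f i).natDegree := j.pos
      have he : (es (es.symm ⟨i, hi⟩)).1 = i := by rw [Equiv.apply_symm_apply]
      refine ⟨⟨es.symm ⟨i, hi⟩, Fin.cast (by rw [he]) j⟩, ?_⟩
      simp only [g, Sigma.mk.injEq]
      refine ⟨he, ?_⟩
      rw [Fin.heq_ext_iff (by rw [he])]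
      rfl
  refine ⟨Fintype.card S, fun i => f (es i).1,
    { v := fun i => v (es i).1
      b := b.reindex (Equiv.ofBijective g hg).symm
      monic := fun i => h1 _
      pos := fun i => (es i).2
      b_eq := fun i j => by
        rw [Basis.reindex_apply, Equiv.symm_symm, Equiv.ofBijective_apply]
        exact h3 _ _
      ann := fun i => h4 _ }, ?_⟩
  intro i
  obtain ⟨p, e, hp, hpm, hpe⟩ := h2 (es i).1
  refine ⟨p, e, hp, hpm, ?_, hpe⟩
  rcases Nat.eq_zero_or_pos e with rfl | he
  · have := (es i).2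
    rw [hpe, pow_zero, natDegree_one] at this
    omega
  · exact he

namespace Data

variable {V : Type v} [AddCommGroup V] [Module F V] {T : V →ₗ[F] V} {m : ℕ} {f : Fin m → F[X]}

theorem aeval_of_lt (D : Data T f) (i : Fin m) (g : F[X]) (hg : g.natDegree < (f i).natDegree) :
    aeval T g (D.v i) = ∑ j : Fin (f i).natDegree, g.coeff j • D.b ⟨i, j⟩ := by
  rw [aeval_eq_sum_range' hg, LinearMap.sum_apply, Finset.sum_range]
  refine Finset.sum_congr rfl fun j _ => ?_
  rw [LinearMap.smul_apply, D.b_eq]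

theorem ann_iff (D : Data T f) (i : Fin m) (g : F[X]) : aeval T g (D.v i) = 0 ↔ f i ∣ g := by
  classical
  constructor
  · intro h
    have h1 := modByMonic_add_div g (f i)
    have hdeg : (g %ₘ f i).natDegree < (f i).natDegree := by
      apply natDegree_modByMonic_lt g (D.monic i)
      intro h1
      have := D.pos i
      rw [h1, natDegree_one] at this
      omega
    have h2 : aeval T (g %ₘ f i) (D.v i) = 0 := by
      rw [← h1, map_add, mul_comm (f i), map_mul, LinearMap.add_apply, Module.End.mul_apply, D.ann, map_zero, add_zero] at h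
      exact h
    rw [D.aeval_of_lt i _ hdeg] at h2
    have hli := D.b.linearIndependent
    have h3 : ∑ x : (Σ i : Fin m, Fin (f i).natDegree),
        (if x.1 = i then (g %ₘ f i).coeff (x.2 : ℕ) else 0) • D.b x = 0 := by
      rw [Fintype.sum_sigma, Finset.sum_eq_single i]
      · rw [← h2]
        refine Finset.sum_congr rfl fun j _ => ?_
        rw [if_pos rfl]
      · intro i' _ hi'
        refine Finset.sum_eq_zero fun j _ => ?_
        rw [if_neg hi', zero_smul]
      · intro h; exact absurd (Finset.mem_univ i) h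
    have h4 := Fintype.linearIndependent_iff.1 hli _ h3
    have h5 : g %ₘ f i = 0 := by
      ext k
      rw [coeff_zero]
      by_cases hk : k < (f i).natDegree
      · have := h4 ⟨i, ⟨k, hk⟩⟩
        simpa using this
      · exact coeff_eq_zero_of_natDegree_lt (by omega)
    exact (modByMonic_eq_zero_iff_dvd (D.monic i)).1 h5
  · rintro ⟨q, rfl⟩
    rw [mul_comm, map_mul, Module.End.mul_apply, D.ann, map_zero]

theorem dvd_of_aeval (D : Data T f) (i : Fin m) (g : F[X]) (hg : aeval T g = 0) : f i ∣ g := by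
  rw [← D.ann_iff, hg, LinearMap.zero_apply]

/-- the endomorphism on basis vectors -/
theorem apply_b (D : Data T f) (i : Fin m) (j : Fin (f i).natDegree) :
    T (D.b ⟨i, j⟩) = if h : (j : ℕ) + 1 < (f i).natDegree then D.b ⟨i, ⟨j + 1, h⟩⟩ else
      - ∑ k : Fin (f i).natDegree, (f i).coeff k • D.b ⟨i, k⟩ := by
  split_ifs with h
  · rw [D.b_eq, D.b_eq, pow_succ', Module.End.mul_apply]
  · rw [D.b_eq, ← Module.End.mul_apply, ← pow_succ']
    have hj : (j : ℕ) + 1 = (f i).natDegree := by have := j.2; omega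
    rw [hj, eq_neg_iff_add_eq_zero, ← D.ann i]
    rw [aeval_eq_sum_range, LinearMap.sum_apply, Finset.sum_range_succ]
    rw [(D.monic i).coeff_natDegree, one_smul, add_comm, Finset.sum_range]
    congr 1
    refine Finset.sum_congr rfl fun k _ => ?_
    rw [D.b_eq, LinearMap.smul_apply]

/-- companion-type matrix -/
def cm (n : ℕ) (g : F[X]) : Matrix (Fin n) (Fin n) F := fun a c =>
  if (c : ℕ) + 1 < n then (if (a : ℕ) = c + 1 then 1 else 0) else - g.coeff a

theorem toMatrix_eq (D : Data T f) :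
    LinearMap.toMatrix D.b D.b T = Matrix.blockDiagonal' (fun i => cm (f i).natDegree (f i)) := by
  classical
  ext ⟨i, a⟩ ⟨i', c⟩
  rw [LinearMap.toMatrix_apply, D.apply_b, Matrix.blockDiagonal'_apply]
  split_ifs with h1 h2 h2
  · simp only at h2
    subst h2
    simp only [cast_eq, cm, Basis.repr_self, Finsupp.single_apply, Sigma.mk.injEq, heq_eq_eq, true_and, if_pos h1]
    by_cases h3 : (a : ℕ) = c + 1
    · rw [if_pos h3, if_pos (Fin.ext h3.symm)]
    · rw [if_neg h3, if_neg (fun h => h3 (by rw [← h]))]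
  · rw [Basis.repr_self, Finsupp.single_apply, if_neg]
    intro h
    exact h2 (by rw [Sigma.mk.injEq] at h; exact h.1.symm)
  · simp only at h2
    subst h2
    simp only [cast_eq, cm, if_neg h1, map_neg, map_sum, map_smul, Finsupp.neg_apply, Finsupp.coe_finsetSum,
      Finset.sum_apply, Finsupp.smul_apply, Basis.repr_self, Finsupp.single_apply, Sigma.mk.injEq, heq_eq_eq, true_and,
      smul_eq_mul, mul_ite, mul_one, mul_zero, Finset.sum_ite_eq', Finset.mem_univ, if_true]
  · simp only [map_neg, map_sum, map_smul, Finsupp.neg_apply, Finsupp.coe_finsetSum,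
      Finset.sum_apply, Finsupp.smul_apply, Basis.repr_self, Finsupp.single_apply, Sigma.mk.injEq, smul_eq_mul]
    rw [neg_eq_zero]
    refine Finset.sum_eq_zero fun k _ => ?_
    rw [if_neg, mul_zero]
    rintro ⟨h, -⟩
    exact h2 h.symm

end Data

theorem eq_X_pow {p : F[X]} {e k : ℕ} (hp : Irreducible p) (hpm : p.Monic) (he : 0 < e) (h : p ^ e ∣ X ^ k) :
    p = X := by
  have h1 : p ∣ X := by
    apply hp.prime.dvd_of_dvd_pow (n := k)
    exact (dvd_pow_self p he.ne').trans h
  have h2 : Associated p X := hp.associated_of_dvd irreducible_X h1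
  exact eq_of_monic_of_associated hpm monic_X h2

/-- Jordan structure of a nilpotent endomorphism -/
theorem exists_jordan {V : Type v} [AddCommGroup V] [Module F V] [FiniteDimensional F V]
    (N : V →ₗ[F] V) (k : ℕ) (hN : N ^ k = 0) :
    ∃ (m : ℕ) (d : Fin m → ℕ) (b : Basis (Σ i : Fin m, Fin (d i)) F V),
      (∀ i, 0 < d i ∧ d i ≤ k) ∧ ∀ i (j : Fin (d i)),
        N (b ⟨i, j⟩) = if h : (j : ℕ) + 1 < d i then b ⟨i, ⟨j + 1, h⟩⟩ else 0 := by
  obtain ⟨m, f, D, hf⟩ := exists_cyclic_basis N
  have hfX : ∀ i, f i = X ^ (f i).natDegree := by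
    intro i
    obtain ⟨p, e, hp, hpm, he, hpe⟩ := hf i
    have h1 : p = X := by
      apply eq_X_pow (k := k) hp hpm he
      rw [← hpe]
      apply D.dvd_of_aeval
      rw [map_pow, aeval_X, hN]
    rw [hpe, h1, natDegree_X_pow]
  refine ⟨m, fun i => (f i).natDegree, D.b, fun i => ⟨D.pos i, ?_⟩, fun i j => ?_⟩
  · have h1 : f i ∣ X ^ k := D.dvd_of_aeval i _ (by rw [map_pow, aeval_X, hN])
    have := natDegree_le_of_dvd h1 (pow_ne_zero _ X_ne_zero)
    rwa [natDegree_X_pow] at this
  · rw [D.apply_b]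
    split_ifs with h
    · rfl
    · rw [neg_eq_zero]
      refine Finset.sum_eq_zero fun l _ => ?_
      have : (f i).coeff l = 0 := by
        calc (f i).coeff l = (X ^ (f i).natDegree : F[X]).coeff (l : ℕ) := congrArg (fun g : F[X] => g.coeff (l : ℕ)) (hfX i)
          _ = 0 := by rw [coeff_X_pow, if_neg (ne_of_lt l.2)]
      rw [this, zero_smul]

theorem conj_of_basis {α κ : Type*} [Fintype α] [DecidableEq α] [Fintype κ] [DecidableEq κ] (x : Matrix α α F)
    (b : Basis κ F (α → F)) (e : κ ≃ α) :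
    ∃ P : Matrix α α F, P.det ≠ 0 ∧
      x * P = P * Matrix.reindex e e (LinearMap.toMatrix b b (Matrix.toLin' x)) := by
  let b' := b.reindex e
  let P := (Pi.basisFun F α).toMatrix b'
  refine ⟨P, ?_, ?_⟩
  · have h5 : P * b'.toMatrix (Pi.basisFun F α) = 1 := Basis.toMatrix_mul_toMatrix_flip _ _
    intro h
    have := congrArg Matrix.det h5
    rw [Matrix.det_mul, h, zero_mul, Matrix.det_one] at this
    exact zero_ne_one this
  · have h6 : LinearMap.toMatrix b' b' (Matrix.toLin' x) =
        Matrix.reindex e e (LinearMap.toMatrix b b (Matrix.toLin' x)) := by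
      ext i j
      simp [b', LinearMap.toMatrix_apply]
    rw [← h6]
    have h7 := linearMap_toMatrix_mul_basis_toMatrix b' (Pi.basisFun F α) (Pi.basisFun F α) (Matrix.toLin' x)
    have h8 := basis_toMatrix_mul_linearMap_toMatrix b' (Pi.basisFun F α) b' (Matrix.toLin' x)
    have h9 : LinearMap.toMatrix (Pi.basisFun F α) (Pi.basisFun F α) (Matrix.toLin' x) = x := by
      rw [← Matrix.toLin_eq_toLin', LinearMap.toMatrix_toLin]
    rw [h9] at h7
    show x * P = P * _
    rw [h7, h8]

/-- nilpotent Jordan block, ones below the diagonal -/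
def jb (d : ℕ) (F : Type*) [Field F] : Matrix (Fin d) (Fin d) F := fun a c => if (a : ℕ) = c + 1 then 1 else 0

theorem exists_jordan_matrix {n : ℕ} (N : Matrix (Fin n) (Fin n) F) (k : ℕ) (hN : N ^ k = 0) :
    ∃ (m : ℕ) (d : Fin m → ℕ) (e : (Σ i : Fin m, Fin (d i)) ≃ Fin n) (R : Matrix (Fin n) (Fin n) F),
      (∀ i, 0 < d i ∧ d i ≤ k) ∧ R.det ≠ 0 ∧
      N * R = R * Matrix.reindex e e (Matrix.blockDiagonal' (fun i => jb (d i) F)) := by
  have h1 : (Matrix.toLin' N) ^ k = 0 := by
    rw [← Matrix.toLin'_pow, hN, map_zero]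
  obtain ⟨m, d, b, hd, hb⟩ := exists_jordan (Matrix.toLin' N) k h1
  have hc : Fintype.card (Σ i : Fin m, Fin (d i)) = n := by
    rw [← Module.finrank_eq_card_basis b, Module.finrank_fintype_fun_eq_card, Fintype.card_fin]
  let e : (Σ i : Fin m, Fin (d i)) ≃ Fin n := Fintype.equivFinOfCardEq hc
  have hM : LinearMap.toMatrix b b (Matrix.toLin' N) = Matrix.blockDiagonal' (fun i => jb (d i) F) := by
    ext x y
    rw [LinearMap.toMatrix_apply]
    obtain ⟨i, a⟩ := x
    obtain ⟨i', c⟩ := y
    rw [hb, Matrix.blockDiagonal'_apply]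
    split_ifs with h1 h2 h2
    · simp only at h2
      subst h2
      simp only [cast_eq, jb, Module.Basis.repr_self, Finsupp.single_apply, Sigma.mk.injEq, heq_eq_eq, true_and]
      by_cases h3 : (a : ℕ) = c + 1
      · rw [if_pos h3, if_pos (Fin.ext h3.symm)]
      · rw [if_neg h3, if_neg (fun h => h3 (by rw [← h]))]
    · rw [Module.Basis.repr_self, Finsupp.single_apply, if_neg]
      intro h
      exact h2 (by rw [Sigma.mk.injEq] at h; exact h.1.symm)
    · simp only at h2
      subst h2
      simp only [cast_eq, jb, map_zero, Finsupp.zero_apply]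
      rw [if_neg]
      have := a.2
      omega
    · simp
  obtain ⟨P, hP, hNP⟩ := conj_of_basis N b e
  exact ⟨m, d, e, P, hd, hP, by rw [hNP, hM]⟩

end H99.Cyclic
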